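import Cfsg.Agent.H763.OverS
import Cfsg.Agent.H802.FusCentric
import Cfsg.Agent.H802.FusGroup

/-!
# Elements of `p`-power order and invariant subsystems over `S` (helper763)

* `mem_autGroup_of_pow` : for `E` invariant in `F` over `S` and `R` fully automized in `F`, the elements of `Aut_F(R)` of
  `p`-power order lie in `Aut_E(R)`;
* `isSimple_criterion` : S5160.
-/

set_option autoImplicit false

namespace Cfsg.Agent.H763

open Cfsg Cfsg.FusionSystem Cfsg.Agent.H802

section Abstract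

variable {Ω : Type*} [Group Ω] {S : Subgroup Ω}

/-- Elements of `p`-power order of `Aut_F(R)`, `R` fully automized in `F`, lie in `Aut_E(R)` for `E` invariant over
`S`. -/
theorem mem_autGroup_of_pow {p : ℕ} [Fact p.Prime] [Finite S] {E F : FusionSystem S} (hE : E.IsInvariantIn F)
    {R : Subgroup Ω} (hR : F.IsFullyAutomized p R) {α : MulAut R} (hα : α ∈ F.autGroup R) {k : ℕ}
    (hk : α ^ p ^ k = 1) : α ∈ E.autGroup R := by
  obtain ⟨hRS, P, hP⟩ := hR
  have : Finite R := finite_of_le hRS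
  have : Finite (MulAut R) := inferInstance
  let a : F.autGroup R := ⟨α, hα⟩
  have ha : IsPGroup p (Subgroup.zpowers a) := by
    rw [IsPGroup.iff_orderOf]
    rintro ⟨_, m, rfl⟩
    have h1 : a ^ p ^ k = 1 := Subtype.ext hk
    have h2 : orderOf (a ^ m) ∣ p ^ k := by
      refine orderOf_dvd_of_pow_eq_one ?_
      rw [← zpow_natCast, ← zpow_mul, mul_comm, zpow_mul, zpow_natCast, h1, one_zpow]
    obtain ⟨j, -, hj⟩ := (Nat.dvd_prime_pow Fact.out).1 h2
    exact ⟨j, by rw [← hj]; exact (Subgroup.orderOf_mk (a ^ m) _)⟩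
  obtain ⟨P', hP'⟩ := ha.exists_le_sylow
  obtain ⟨b, hb⟩ := MulAction.exists_smul_eq (F.autGroup R) P' P
  have h3 : b * a * b⁻¹ ∈ (P : Subgroup (F.autGroup R)) := by
    rw [← hb]
    exact Subgroup.smul_mem_pointwise_smul a (MulAut.conj b) (P' : Subgroup (F.autGroup R))
      (hP' (Subgroup.mem_zpowers a))
  rw [hP, Subgroup.mem_subgroupOf] at h3
  have h4 : ((b : MulAut R) * α * (b : MulAut R)⁻¹) ∈ E.autGroup R :=
    autInducedBy_le_autGroup E hRS h3
  have h5 := conj_mem_autGroup hE hRS h4 ((F.autGroup R).inv_mem b.2)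
  have h6 : (b : MulAut R)⁻¹ * ((b : MulAut R) * α * (b : MulAut R)⁻¹) * (b : MulAut R)⁻¹⁻¹ = α := by group
  rwa [h6] at h5

end Abstract

section Group

variable {G : Type*} [Group G] {S : Subgroup G}

/-- Elements of `p`-power order of `N_G(R)` induce maps of `E` on `R`. -/
theorem mem_Nn_of_orderOf {p : ℕ} [Fact p.Prime] [Finite S] {E : FusionSystem S}
    (hE : E.IsInvariantIn (groupFusionSystem S)) {R : Subgroup G}
    (hR : (groupFusionSystem S).IsFullyAutomized p R) {g : G} (hg : g ∈ Subgroup.normalizer (R : Set G)) {k : ℕ}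
    (hk : g ^ p ^ k = 1) : g ∈ Nn E hR.1 := by
  obtain ⟨α, hα⟩ := exists_conjAut hg
  have h1 : α ∈ (groupFusionSystem S).autGroup R :=
    (mem_autGroup_iff _ hR.1 α).2 (mem_of_apply_eq
      (conjHom_mem_group hR.1 (g := g) fun x hx => hR.1 ((Subgroup.mem_normalizer_iff.1 hg x).1 hx)) hα)
  have hpow : ∀ (n : ℕ) (x : R), (((α ^ n) x : R) : G) = g ^ n * (x : G) * (g ^ n)⁻¹ := by
    intro n
    induction n with
    | zero => intro x; simp
    | succ n ih =>
      intro x
      rw [pow_succ, MulAut.mul_apply, ih, hα, pow_succ]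
      group
  have h2 : α ^ p ^ k = 1 := by
    apply MulEquiv.ext
    intro x
    apply Subtype.ext
    rw [hpow, hk]
    simp
  have h3 := mem_autGroup_of_pow hE hR h1 h2
  exact ⟨hg, mem_of_apply_eq ((mem_autGroup_iff E hR.1 α).1 h3) fun x => (hα x).symm⟩

/-- **Simplicity criterion (S5160).** -/
theorem isSimple_criterion {G : Type*} [Group G] [Finite G] (p : ℕ) [Fact p.Prime] (S : Sylow p G)
    (hS1 : (S : Subgroup G) ≠ ⊥)
    (ha : ∀ T : Subgroup G, (groupFusionSystem (S : Subgroup G)).StronglyClosed T → T = ⊥ ∨ T = (S : Subgroup G))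
    (hb : autInducedBy ⊤ (S : Subgroup G) = ⨆ (R : Subgroup G)
      (_ : (groupFusionSystem (S : Subgroup G)).IsFullyNormalized R ∧
        (groupFusionSystem (S : Subgroup G)).IsRadical p R ∧ (groupFusionSystem (S : Subgroup G)).IsCentric R),
        autInducedBy (Subgroup.closure {g : G | g ∈ Subgroup.normalizer (R : Set G) ∧ ∃ k : ℕ, orderOf g = p ^ k})
          (S : Subgroup G)) : (groupFusionSystem (S : Subgroup G)).IsSimple p := by
  have hsat := groupFusionSystem_isSaturated S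
  refine ⟨hsat, hS1, fun D E hE => ?_⟩
  rcases ha D hE.1.2.2.2.1 with h1 | h1
  · exact Or.inl h1
  right
  subst h1
  refine ⟨rfl, hom_eq_of_autGroup_le hE.1.2.2 ?_⟩
  have hinv := hE.1.2.2
  have hF : (groupFusionSystem (S : Subgroup G)).autGroup (S : Subgroup G) ≤
      autInducedBy ⊤ (S : Subgroup G) := by
    intro α hα
    obtain ⟨-, -, g, hg⟩ := (mem_autGroup_iff _ le_rfl α).1 hα
    exact (mem_autInducedBy_iff _ _ _).2 ⟨g, trivial, hg⟩
  refine hF.trans ?_
  rw [hb]
  refine iSup₂_le ?_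
  rintro R ⟨hRn, -, hRc⟩ α hα
  obtain ⟨g, hg, hgα⟩ := (mem_autInducedBy_iff _ _ _).1 hα
  have hRa := isFullyAutomized_of_isFullyNormalized S.2 hsat hRn
  have h2 : Subgroup.closure {g : G | g ∈ Subgroup.normalizer (R : Set G) ∧ ∃ k : ℕ, orderOf g = p ^ k} ≤
      Nn E hRa.1 := by
    rw [Subgroup.closure_le]
    rintro x ⟨hx, k, hk⟩
    exact mem_Nn_of_orderOf hinv hRa hx (k := k) (by rw [← hk]; exact pow_orderOf_eq_one x)
  have h3 := h2 hg
  rw [mem_autGroup_iff E le_rfl]
  refine mem_of_restrict_centric S.2 hsat hE.1.1 hinv.1 hRc hRa.1 ?_ ?_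
  · refine ⟨le_rfl, fun x => (α x).2, g, hgα⟩
  · refine mem_of_apply_eq h3.2 fun x => ?_
    exact hgα (Subgroup.inclusion hRa.1 x)

end Group

end Cfsg.Agent.H763
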